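/-
Counting elements of given orders in the small Ree groups: the semisimple part.
-/
import Cfsg.Agent.Lib.Ree.Orders

set_option autoImplicit false
set_option synthInstance.maxHeartbeats 400000
set_option synthInstance.maxSize 1024

namespace CfsgLib.Ree

open Cfsg.Lie Cfsg.Lie.ChevalleyDatum CfsgLib.BN CfsgLib.Chev CfsgLib.H9.SL2Cl Matrix

section general

variable {Γ : Type*} [Group Γ] [Finite Γ]

lemma orderOf_conj_inv (n a : Γ) : orderOf (n⁻¹ * a * n) = orderOf a := by
  have h := orderOf_injective (MulAut.conj n⁻¹).toMonoidHom (MulAut.conj n⁻¹).injective a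
  simpa using h

/-- The elements of given order in a subgroup. -/
def ordS (X : Subgroup Γ) (i : ℕ) : Set Γ := {y | y ∈ X ∧ orderOf y = i}

lemma ordS_count {X : Subgroup Γ} {i : ℕ} (hC : ∀ a ∈ ordS X i, Subgroup.centralizer ({a} : Set Γ) = X) :
    Nat.card (conjOf (ordS X i)) * Nat.card (Subgroup.normalizer (X : Set Γ)) = Nat.card Γ * Nat.card (ordS X i) := by
  apply conj_count
  · rintro a ⟨ha, hi⟩ n hn
    refine ⟨?_, by rw [orderOf_conj_inv, hi]⟩
    have := (Subgroup.mem_normalizer_iff.1 (inv_mem hn) a).1 ha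
    simpa using this
  · intro a ha n hb
    rw [Subgroup.mem_normalizer_iff]
    intro h
    have e1 := hC a ha
    have e2 := hC _ hb
    have h1 : n * (n⁻¹ * a * n) * n⁻¹ = a := by group
    have e3 : n * h * n⁻¹ ∈ Subgroup.centralizer ({a} : Set Γ) ↔ h ∈ Subgroup.centralizer ({n⁻¹ * a * n} : Set Γ) := by
      conv_lhs => rw [← h1]
      exact mem_cent_conj
    rw [e1, e2] at e3
    exact e3.symm

lemma conjOf_ordS {X : Subgroup Γ} {i : ℕ} (h : ∀ g : Γ, orderOf g = i → ∃ x : Γ, x⁻¹ * g * x ∈ X) :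
    conjOf (ordS X i) = {g | orderOf g = i} := by
  ext g
  constructor
  · rintro ⟨x, -, hx⟩
    rw [orderOf_conj_inv] at hx
    exact hx
  · intro hg
    obtain ⟨x, hx⟩ := h g hg
    exact ⟨x, hx, by rw [orderOf_conj_inv]; exact hg⟩

lemma card_ordS_cyc {X : Subgroup Γ} (hX : IsCyclic X) {i : ℕ} (hi : i ∣ Nat.card X) : Nat.card (ordS X i) = Nat.totient i := by
  classical
  haveI := Fintype.ofFinite X
  rw [Nat.card_eq_fintype_card] at hi
  rw [← IsCyclic.card_orderOf_eq_totient hi]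
  rw [← Fintype.card_subtype, ← Nat.card_eq_fintype_card]
  apply Nat.card_congr
  refine ⟨fun y => ⟨⟨y.1, y.2.1⟩, ?_⟩, fun a => ⟨a.1.1, a.1.2, ?_⟩, fun y => rfl, fun a => rfl⟩
  · exact (Subgroup.orderOf_mk _ _).trans y.2.2
  · exact (Subgroup.orderOf_coe _).trans a.2

/-- The set of all elements of order `i`, as a coerced set. -/
lemma card_order_set (i : ℕ) : Nat.card {g : Γ // orderOf g = i} = Nat.card ({g | orderOf g = i} : Set Γ) := rfl

end general

variable {K : Type*} [Field K] [Fintype K] {e : ℕ}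

/-- Count of the elements of order `i` when `i > 2` divides `q-1`. -/
theorem RCtx.count_minus (C : RCtx K e) {m : ℕ} (hm : 1 ≤ m) (hK : Fintype.card K = 3 ^ (2 * m + 1)) {i : ℕ} (hi : 2 < i) (hd : i ∣ Fintype.card K - 1) :
    2 * Nat.card {g : ↥(twistedG2 K e) // orderOf g = i} = Nat.totient i * Fintype.card K ^ 3 * (Fintype.card K ^ 3 + 1) := by
  classical
  have h8 : 3 ^ (2 * m + 1) % 8 = 3 := card_mod_eight
  rw [← hK] at h8
  have hq1 : 0 < Fintype.card K - 1 := by omega
  -- an odd prime factor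
  obtain ⟨p, hp, hp2, hpi⟩ : ∃ p : ℕ, p.Prime ∧ p ≠ 2 ∧ p ∣ i := by
    by_contra hcon
    push Not at hcon
    have hpow : i = 2 ^ i.primeFactorsList.length := by
      apply Nat.eq_prime_pow_of_unique_prime_dvd (by omega)
      intro d hdp hdi
      by_contra hne
      exact hcon d hdp hne hdi
    generalize i.primeFactorsList.length = k at hpow
    have hk : 2 ≤ k := by
      by_contra hk
      have : k = 0 ∨ k = 1 := by omega
      rcases this with rfl | rfl <;> simp at hpow <;> omega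
    have h4 : 4 ∣ i := by
      rw [hpow]
      exact pow_dvd_pow 2 hk
    have h5 : 4 ∣ Fintype.card K - 1 := h4.trans hd
    omega
  have hpq : p ∣ Fintype.card K - 1 := hpi.trans hd
  have hC : ∀ a ∈ ordS C.rH.range i, Subgroup.centralizer ({a} : Set ↥(twistedG2 K e)) = C.rH.range := by
    rintro a ⟨⟨y, rfl⟩, hord⟩
    apply C.cent_rH
    intro hy
    have h1 : (C.rH y) ^ 2 = 1 := by rw [pow_two, ← map_mul, hy, map_one]
    have h2 := orderOf_dvd_of_pow_eq_one h1
    rw [hord] at h2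
    have := Nat.le_of_dvd (by norm_num) h2
    omega
  have hconj : conjOf (ordS C.rH.range i) = {g | orderOf g = i} := by
    apply conjOf_ordS
    intro g hg
    obtain ⟨k, hk⟩ := C.into_minus hK hp hp2 hpq (Subgroup.isCyclic_zpowers g) (by rw [Nat.card_zpowers, hg]; exact hpi)
    refine ⟨k⁻¹, ?_⟩
    rw [inv_inv]
    exact hk g (Subgroup.mem_zpowers g)
  have hcount := ordS_count hC
  rw [hconj, C.card_norm_H₀ hm hK, C.card_G, card_ordS_cyc C.H₀_cyclic (by rw [C.card_H₀]; exact hd)] at hcount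
  rw [card_order_set]
  generalize Nat.card ({g | orderOf g = i} : Set ↥(twistedG2 K e)) = c at hcount ⊢
  generalize Fintype.card K - 1 = d at hcount hq1
  generalize Fintype.card K ^ 3 = q3 at hcount ⊢
  apply Nat.eq_of_mul_eq_mul_right hq1
  calc 2 * c * d = c * (2 * d) := by ring
    _ = q3 * d * (1 + q3) * Nat.totient i := hcount
    _ = Nat.totient i * q3 * (q3 + 1) * d := by ring

/-- Count of the elements of order `j` when `j` is divisible by an odd prime dividing `(q+1)/4`. -/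
theorem RCtx.count_plus_aux (C : RCtx K e) {m : ℕ} (hm : 1 ≤ m) (hK : Fintype.card K = 3 ^ (2 * m + 1)) {j : ℕ} (hj : 2 < j) {p : ℕ} (hp : p.Prime) (hp2 : p ≠ 2) (hpq : p ∣ Fintype.card K + 1) (hpj : p ∣ j) :
    Nat.card {g : ↥(twistedG2 K e) // orderOf g = j} * (6 * (Fintype.card K + 1)) = Nat.card ↥(twistedG2 K e) * Nat.card (ordS C.E₀ j) := by
  classical
  have hC : ∀ a ∈ ordS C.E₀ j, Subgroup.centralizer ({a} : Set ↥(twistedG2 K e)) = C.E₀ := by
    rintro a ⟨ha, hord⟩
    apply C.S₀_cent hK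
    refine ⟨ha, fun hy => ?_⟩
    have h1 : a ^ 2 = 1 := by rw [pow_two, hy]
    have h2 := orderOf_dvd_of_pow_eq_one h1
    rw [hord] at h2
    have := Nat.le_of_dvd (by norm_num) h2
    omega
  have hconj : conjOf (ordS C.E₀ j) = {g | orderOf g = j} := by
    apply conjOf_ordS
    intro g hg
    obtain ⟨k, hk⟩ := C.into_plus hK hp hp2 hpq (Subgroup.isCyclic_zpowers g) (by rw [Nat.card_zpowers, hg]; exact hpj)
    refine ⟨k⁻¹, ?_⟩
    rw [inv_inv]
    exact hk g (Subgroup.mem_zpowers g)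
  have hcount := ordS_count hC
  rw [hconj, C.card_norm_E₀ hm hK] at hcount
  rw [card_order_set]
  exact hcount

/-- The count for odd tori. -/
theorem RCtx.count_O (C : RCtx K e) {m : ℕ} (hK : Fintype.card K = 3 ^ (2 * m + 1)) (hS : IsSimpleGroup ↥(twistedG2 K e))
    {T : Subgroup ↥(twistedG2 K e)} (hT : C.IsOT T) {c₂ : ℕ} (hprod : Fintype.card K ^ 2 - Fintype.card K + 1 = Nat.card T * c₂) (hN : Nat.card (Subgroup.normalizer (T : Set ↥(twistedG2 K e))) = 6 * Nat.card T)
    {i : ℕ} (hi : 1 < i) (hd : i ∣ Nat.card T) :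
    6 * Nat.card {g : ↥(twistedG2 K e) // orderOf g = i} = Nat.totient i * Fintype.card K ^ 3 * (Fintype.card K ^ 2 - 1) * c₂ := by
  classical
  have hq : 3 ≤ Fintype.card K := by
    rw [hK]
    calc 3 = 3 ^ 1 := by norm_num
      _ ≤ 3 ^ (2 * m + 1) := Nat.pow_le_pow_right (by norm_num) (by omega)
  have hq1 : 1 ≤ Fintype.card K := by omega
  obtain ⟨p, hp, hpi⟩ := Nat.exists_prime_and_dvd (show i ≠ 1 by omega)
  have hpT : p ∣ Nat.card T := hpi.trans hd
  have hpq : p ∣ Fintype.card K ^ 2 - Fintype.card K + 1 := by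
    rw [hprod]
    exact Dvd.dvd.mul_right hpT _
  have hC : ∀ a ∈ ordS T i, Subgroup.centralizer ({a} : Set ↥(twistedG2 K e)) = T := by
    rintro a ⟨ha, hord⟩
    apply hT.cent_eq hK hS ha
    rintro rfl
    rw [orderOf_one] at hord
    omega
  have hconj : conjOf (ordS T i) = {g | orderOf g = i} := by
    apply conjOf_ordS
    intro g hg
    obtain ⟨k, hk⟩ := C.into_O hK hS hp hpq hT hpT (Subgroup.isCyclic_zpowers g) (by rw [Nat.card_zpowers, hg]; exact hpi)
    refine ⟨k⁻¹, ?_⟩
    rw [inv_inv]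
    exact hk g (Subgroup.mem_zpowers g)
  have hcount := ordS_count hC
  rw [hconj, hN, C.card_G, card_ordS_cyc (hT.cyclic hK hS) hd, q_cube hq1, hprod] at hcount
  rw [card_order_set]
  have hT0 : 0 < Nat.card T := Nat.card_pos
  have hq2 : Fintype.card K ^ 2 - 1 = (Fintype.card K - 1) * (Fintype.card K + 1) := by
    obtain ⟨a, ha⟩ : ∃ a, Fintype.card K = a + 1 := ⟨Fintype.card K - 1, by omega⟩
    rw [ha]
    have : (a + 1) ^ 2 = (a * (a + 2)) + 1 := by ring
    rw [this]
    simp
  rw [hq2]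
  generalize Nat.card ({g | orderOf g = i} : Set ↥(twistedG2 K e)) = c at hcount ⊢
  generalize Fintype.card K - 1 = d at hcount ⊢
  generalize Fintype.card K ^ 3 = q3 at hcount ⊢
  generalize Nat.card T = t at hcount hT0
  apply Nat.eq_of_mul_eq_mul_right hT0
  calc 6 * c * t = c * (6 * t) := by ring
    _ = q3 * d * ((Fintype.card K + 1) * (t * c₂)) * Nat.totient i := hcount
    _ = _ := by ring

end CfsgLib.Ree
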