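/-
Counting elements of given orders in the small Ree groups: the Borel part.
-/
import Cfsg.Agent.Lib.Ree.Count1

set_option autoImplicit false
set_option synthInstance.maxHeartbeats 400000
set_option synthInstance.maxSize 1024

namespace CfsgLib.Ree

open Cfsg.Lie Cfsg.Lie.ChevalleyDatum CfsgLib.BN CfsgLib.Chev CfsgLib.H9.SL2Cl Matrix

variable {K : Type*} [Field K] [Fintype K] {e : ℕ}

theorem RCtx.card_ord_E₀ (C : RCtx K e) {m : ℕ} (hm : 1 ≤ m) (hK : Fintype.card K = 3 ^ (2 * m + 1)) {i : ℕ} (hd : i ∣ (Fintype.card K + 1) / 4) :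
    Nat.card (ordS C.E₀ i) = Nat.totient i := by
  obtain ⟨A, hA, hAc, -, hmem, -⟩ := C.exists_A_plus hm hK
  have h1 : ordS C.E₀ i = ordS A i := by
    ext y
    constructor
    · rintro ⟨h1, h2⟩
      refine ⟨(hmem y).2 ⟨h1, ?_⟩, h2⟩
      rw [← h2] at hd
      exact orderOf_dvd_iff_pow_eq_one.1 hd
    · rintro ⟨h1, h2⟩
      exact ⟨((hmem y).1 h1).1, h2⟩
  rw [h1, card_ordS_cyc hA (by rw [hAc]; exact hd)]

lemma RCtx.card_isX (C : RCtx K e) : Nat.card {y : ↥(twistedG2 K e) // C.isX y} = 3 := by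
  have h1 : ({C.aI, C.w₁, C.aI * C.w₁} : Set ↥(twistedG2 K e)).ncard = 3 := by
    rw [Set.ncard_eq_three]
    refine ⟨C.aI, C.w₁, C.aI * C.w₁, C.aI_ne_w₁, ?_, ?_, rfl⟩
    · intro h
      exact C.w₁_ne_one (mul_eq_left.1 h.symm)
    · intro h
      exact C.aI_ne (mul_eq_right.1 h.symm)
  rw [← h1, ← Nat.card_coe_set_eq]
  rfl

theorem RCtx.card_ord_E₀_two (C : RCtx K e) {m : ℕ} (hm : 1 ≤ m) (hK : Fintype.card K = 3 ^ (2 * m + 1)) {i : ℕ} (hd : i ∣ (Fintype.card K + 1) / 4) :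
    Nat.card (ordS C.E₀ (2 * i)) = 3 * Nat.totient i := by
  classical
  have h8 : 3 ^ (2 * m + 1) % 8 = 3 := card_mod_eight
  rw [← hK] at h8
  have hodd : Odd i := by
    have h1 : Odd ((Fintype.card K + 1) / 4) := by
      rw [Nat.odd_iff]
      omega
    exact h1.of_dvd_nat hd
  have hcop2 : ∀ d, d ∣ i → Nat.Coprime 2 d := fun d hdi => (Nat.coprime_two_left.2 hodd).coprime_dvd_right hdi
  rw [← C.card_ord_E₀ hm hK hd, ← C.card_isX, ← Nat.card_prod]
  symm
  apply Nat.card_congr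
  have hord : ∀ (v a : ↥(twistedG2 K e)), C.isX v → a ∈ ordS C.E₀ i → orderOf (v * a) = 2 * orderOf a := by
    rintro v a hv ⟨ha, hi⟩
    have hv2 : orderOf v = 2 := by
      haveI : Fact (Nat.Prime 2) := ⟨Nat.prime_two⟩
      apply orderOf_eq_prime _ (C.isX_ne_one hv)
      rw [pow_two, C.isX_sq hv]
    have hc : Commute v a := C.E₀_comm _ (C.isX_mem hv) _ ha
    rw [hc.orderOf_mul_eq_mul_orderOf_of_coprime (by rw [hv2, hi]; exact hcop2 i dvd_rfl), hv2]
  refine Equiv.ofBijective (fun p => ⟨p.1.1 * p.2.1, mul_mem (C.isX_mem p.1.2) p.2.2.1, ?_⟩) ⟨?_, ?_⟩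
  · rw [hord _ _ p.1.2 p.2.2, p.2.2.2]
  · rintro ⟨⟨v, hv⟩, ⟨a, ha⟩⟩ ⟨⟨v', hv'⟩, ⟨a', ha'⟩⟩ h
    have h1 : v * a = v' * a' := congrArg Subtype.val h
    have hcomm : ∀ x ∈ C.E₀, ∀ y ∈ C.E₀, x * y = y * x := C.E₀_comm
    have haE := ha.1
    have haE' := ha'.1
    have hvE := C.isX_mem hv
    have hvE' := C.isX_mem hv'
    have h2 : v' * v = a' * a⁻¹ := by
      have h3 : v = v' * a' * a⁻¹ := by rw [← h1]; group
      have hv'2 := C.isX_sq hv'
      calc v' * v = v' * (v' * a' * a⁻¹) := by rw [← h3]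
        _ = (v' * v') * (a' * a⁻¹) := by group
        _ = a' * a⁻¹ := by rw [hv'2, one_mul]
    set x := a' * a⁻¹ with hx
    have hxE : x ∈ C.E₀ := mul_mem haE' (inv_mem haE)
    have hx2 : x * x = 1 := by
      rw [← h2]
      have := hcomm v' hvE' v hvE
      calc v' * v * (v' * v) = v' * (v * v') * v := by group
        _ = v' * (v' * v) * v := by rw [this]
        _ = (v' * v') * (v * v) := by group
        _ = 1 := by rw [C.isX_sq hv, C.isX_sq hv', one_mul]
    have hxi : x ^ i = 1 := by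
      have hc : Commute a' a⁻¹ := hcomm _ haE' _ (inv_mem haE)
      rw [hx, hc.mul_pow, inv_pow]
      have h3 : a ^ i = 1 := by rw [← ha.2]; exact pow_orderOf_eq_one a
      have h4 : a' ^ i = 1 := by rw [← ha'.2]; exact pow_orderOf_eq_one a'
      rw [h3, h4]
      simp
    have hx1 : x = 1 := eq_one_of_sq_odd hodd hx2 hxi
    have h5 : a' = a := by
      rw [hx, mul_inv_eq_one] at hx1
      exact hx1
    subst h5
    have h6 : v = v' := mul_right_cancel h1
    subst h6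
    rfl
  · rintro ⟨y, hyE, hyo⟩
    set v := y ^ i with hv
    have hvE : v ∈ C.E₀ := pow_mem hyE i
    have hi0 : 0 < i := hodd.pos
    have hv2 : v * v = 1 := by
      rw [hv, ← pow_add, ← two_mul, ← hyo]
      exact pow_orderOf_eq_one y
    have hv1 : v ≠ 1 := pow_ne_one_of_lt_orderOf hi0.ne' (by rw [hyo]; omega)
    have hvX := C.E₀_invol hvE hv2 hv1
    have haE : v * y ∈ C.E₀ := mul_mem hvE hyE
    have hcomm : Commute v (v * y) := C.E₀_comm _ hvE _ haE
    have hmul : v * (v * y) = y := by rw [← mul_assoc, hv2, one_mul]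
    have hv2o : orderOf v = 2 := by
      haveI : Fact (Nat.Prime 2) := ⟨Nat.prime_two⟩
      apply orderOf_eq_prime _ hv1
      rw [pow_two, hv2]
    have hai : (v * y) ^ i = 1 := by
      have hc : Commute v y := (Commute.refl y).pow_left i
      have hvi : v ^ i = v := by
        obtain ⟨k, hk⟩ := hodd
        conv_lhs => rw [hk, pow_succ, pow_mul, pow_two, hv2, one_pow, one_mul]
      rw [hc.mul_pow, ← hv, hvi, hv2]
    have hdvd : orderOf (v * y) ∣ i := orderOf_dvd_of_pow_eq_one hai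
    have hoa : orderOf (v * y) = i := by
      have h1 := hcomm.orderOf_mul_eq_mul_orderOf_of_coprime (by rw [hv2o]; exact hcop2 _ hdvd)
      rw [hmul, hyo, hv2o] at h1
      omega
    refine ⟨(⟨v, hvX⟩, ⟨v * y, haE, hoa⟩), ?_⟩
    exact Subtype.ext hmul

section fixing

lemma RCtx.uniq_fix (C : RCtx K e) {n : ℕ} (hK : Fintype.card K = 3 ^ n) {g : ↥(twistedG2 K e)} {j : ℕ} (hj : j = 3 ∨ j = 6 ∨ j = 9) (ho : orderOf g = j)
    {w w' : Pts K e} (h : g • w = w) (h' : g • w' = w') : w = w' := by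
  by_contra hne
  rcases hj with rfl | rfl | rfl
  · have hx : g ^ 3 ^ 1 = 1 := by rw [pow_one, ← ho]; exact pow_orderOf_eq_one g
    have := C.eq_one_of_fix_two hK hx hne h h'
    rw [this, orderOf_one] at ho
    omega
  · have hx : (g ^ 2) ^ 3 ^ 1 = 1 := by
      rw [← pow_mul]
      have : 2 * 3 ^ 1 = 6 := by norm_num
      rw [this, ← ho]
      exact pow_orderOf_eq_one g
    have h1 : (g ^ 2) • w = w := by rw [pow_two, mul_smul, h, h]
    have h2 : (g ^ 2) • w' = w' := by rw [pow_two, mul_smul, h', h']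
    have := C.eq_one_of_fix_two hK hx hne h1 h2
    have h3 := orderOf_dvd_of_pow_eq_one this
    rw [ho] at h3
    omega
  · have hx : g ^ 3 ^ 2 = 1 := by
      have : 3 ^ 2 = 9 := by norm_num
      rw [this, ← ho]
      exact pow_orderOf_eq_one g
    have := C.eq_one_of_fix_two hK hx hne h h'
    rw [this, orderOf_one] at ho
    omega

lemma RCtx.exists_fix_order (C : RCtx K e) {n : ℕ} (hK : Fintype.card K = 3 ^ (n + 1)) {g : ↥(twistedG2 K e)} {j : ℕ} (hj : j = 3 ∨ j = 6 ∨ j = 9) (ho : orderOf g = j) :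
    ∃ w : Pts K e, g • w = w := by
  rcases hj with rfl | rfl | rfl
  · have hx : g ^ 3 ^ 1 = 1 := by rw [pow_one, ← ho]; exact pow_orderOf_eq_one g
    exact C.exists_fix_three hK hx
  · have hx : (g ^ 2) ^ 3 ^ 1 = 1 := by
      rw [← pow_mul]
      have : 2 * 3 ^ 1 = 6 := by norm_num
      rw [this, ← ho]
      exact pow_orderOf_eq_one g
    obtain ⟨w, hw⟩ := C.exists_fix_three hK hx
    refine ⟨w, ?_⟩
    by_contra hne
    have h1 : (g ^ 2) • (g • w) = g • w := by
      rw [← mul_smul, ← pow_succ, pow_succ', mul_smul, hw]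
    have := C.eq_one_of_fix_two hK hx hne h1 hw
    have h3 := orderOf_dvd_of_pow_eq_one this
    rw [ho] at h3
    omega
  · have hx : g ^ 3 ^ 2 = 1 := by
      have : 3 ^ 2 = 9 := by norm_num
      rw [this, ← ho]
      exact pow_orderOf_eq_one g
    exact C.exists_fix_three hK hx

/-- The count of elements of order 3, 6, 9 in terms of the count in the Borel subgroup. -/
theorem RCtx.count_borel (C : RCtx K e) {n : ℕ} (hK : Fintype.card K = 3 ^ (n + 1)) {j : ℕ} (hj : j = 3 ∨ j = 6 ∨ j = 9) :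
    Nat.card {g : ↥(twistedG2 K e) // orderOf g = j} = (1 + Fintype.card K ^ 3) * Nat.card (ordS (borelOf K e) j) := by
  classical
  have hq : 3 ≤ Fintype.card K := by
    rw [hK]
    calc 3 = 3 ^ 1 := by norm_num
      _ ≤ 3 ^ (n + 1) := Nat.pow_le_pow_right (by norm_num) (by omega)
  have hc := conj_count (ordS (borelOf K e) j) (borelOf K e) ?_ ?_
  · have hconj : conjOf (ordS (borelOf K e) j) = {g | orderOf g = j} := by
      apply conjOf_ordS
      intro g hg
      obtain ⟨w, hw⟩ := C.exists_fix_order hK hj hg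
      obtain ⟨k, hk⟩ := conj_borel_of_fix hw
      exact ⟨k⁻¹, by rw [inv_inv]; exact hk⟩
    rw [hconj, C.card_borel, C.card_G] at hc
    rw [card_order_set]
    have hpos : 0 < Fintype.card K ^ 3 * (Fintype.card K - 1) := Nat.mul_pos (Nat.pow_pos (by omega)) (by omega)
    generalize Nat.card ({g | orderOf g = j} : Set ↥(twistedG2 K e)) = c at hc ⊢
    generalize Fintype.card K ^ 3 * (Fintype.card K - 1) = d at hc hpos
    apply Nat.eq_of_mul_eq_mul_right hpos
    calc c * d = d * (1 + Fintype.card K ^ 3) * Nat.card (ordS (borelOf K e) j) := hc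
      _ = _ := by ring
  · rintro a ⟨ha, hi⟩ b hb
    refine ⟨mul_mem (mul_mem (inv_mem hb) ha) hb, by rw [orderOf_conj_inv, hi]⟩
  · rintro a ⟨ha, hi⟩ n' ⟨hb, hi'⟩
    rw [← fix_ptI]
    have h1 : a • (ptI : Pts K e) = ptI := fix_ptI.2 ha
    have h2 : (n'⁻¹ * a * n') • (ptI : Pts K e) = ptI := fix_ptI.2 hb
    have h3 : a • (n' • (ptI : Pts K e)) = n' • ptI := by
      rw [mul_smul, mul_smul, inv_smul_eq_iff] at h2
      exact h2
    exact C.uniq_fix hK hj hi h3 h1

end fixing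

section borel

lemma RCtx.sq_rS_aI (C : RCtx K e) (t u v : K) :
    (C.rS t u v * C.aI) ^ 2 = C.rS 0 (t * C.ρ t - u) (t * (u - t * C.ρ t)) := by
  have h3 := C.three
  have e1 : (C.rS t u v * C.aI) ^ 2 = C.rS t u v * (C.aI * C.rS t u v * C.aI⁻¹) := by
    rw [pow_two, C.aI_inv]
    group
  rw [e1, C.aI_conj, C.rS_mul]
  have e2 : t + -t = 0 := add_neg_cancel t
  have e3 : u + u - t * C.ρ (-t) = t * C.ρ t - u := by
    rw [map_neg]
    linear_combination u * h3
  have e4 : v + -v - t ^ 2 * C.ρ (-t) - -t * u + t * -t * C.ρ (-t) = t * (u - t * C.ρ t) := by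
    rw [map_neg]
    linear_combination (t ^ 2 * C.ρ t) * h3
  rw [e2, e3, e4]

lemma RCtx.rS_aI_six (C : RCtx K e) (t u v : K) : (C.rS t u v * C.aI) ^ 6 = 1 := by
  rw [show (6 : ℕ) = 2 * 3 from rfl, pow_mul, C.sq_rS_aI]
  exact C.rS0_cube _ _

lemma RCtx.rS_aI_cube_ne (C : RCtx K e) (t u v : K) : (C.rS t u v * C.aI) ^ 3 ≠ 1 := by
  intro h
  have e1 : (C.rS t u v * C.aI) ^ 3 = (C.rS t u v * C.aI) ^ 2 * (C.rS t u v * C.aI) := pow_succ _ _
  rw [e1, C.sq_rS_aI, ← mul_assoc, C.rS_mul] at h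
  have h2 := eq_inv_of_mul_eq_one_right h
  have h3 : C.aI ^ 9 = 1 := by
    rw [h2, inv_pow, C.rS_nine']
    simp
  have h4 : C.aI ^ 9 = C.aI := by
    rw [show (9 : ℕ) = 2 * 4 + 1 from rfl, pow_succ, pow_mul, pow_two, C.aI_sq, one_pow, one_mul]
  rw [h4] at h3
  exact C.aI_ne h3

lemma order_six_of {Γ : Type*} [Group Γ] {g : Γ} (h6 : g ^ 6 = 1) (h2 : g ^ 2 ≠ 1) (h3 : g ^ 3 ≠ 1) : orderOf g = 6 := by
  have hd := orderOf_dvd_of_pow_eq_one h6
  have hle := Nat.le_of_dvd (by norm_num) hd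
  have hpos : orderOf g ≠ 0 := by
    intro h
    rw [h] at hd
    omega
  generalize hk : orderOf g = k at hd hle hpos
  interval_cases k
  · exact absurd rfl hpos
  · exfalso
    apply h2
    rw [orderOf_eq_one_iff.1 hk]
    simp
  · exfalso
    apply h2
    rw [← hk]
    exact pow_orderOf_eq_one g
  · exfalso
    apply h3
    rw [← hk]
    exact pow_orderOf_eq_one g
  · omega
  · omega
  · rfl

/-- An element of the Borel subgroup whose order is divisible by `3` is of one of the two forms. -/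
lemma RCtx.borel_three_cases (C : RCtx K e) {m : ℕ} (hK : Fintype.card K = 3 ^ (2 * m + 1)) {g : ↥(twistedG2 K e)} (hg : g ∈ borelOf K e) (h3 : 3 ∣ orderOf g) :
    ∃ t u v, g = C.rS t u v ∨ g = C.rS t u v * C.aI := by
  obtain ⟨t, u, v, y, rfl⟩ := C.mem_borelOf.1 hg
  by_cases hy : (y : K) ^ 2 = 1
  · rcases sq_cases hy with h | h
    · have hy1 : y = 1 := Units.ext h
      refine ⟨t, u, v, Or.inl ?_⟩
      rw [hy1, map_one, mul_one]
    · have hy1 : y = -1 := Units.ext (by simpa using h)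
      refine ⟨t, u, v, Or.inr ?_⟩
      rw [hy1]
      rfl
  · exfalso
    obtain ⟨s, -, hs⟩ := C.coset_conj hy t u v
    have h1 : (C.rS t u v * C.rH y) ^ (Fintype.card K - 1) = 1 := by
      rw [hs, conj_pow, ← map_pow]
      have h1 : y ^ (Fintype.card K - 1) = 1 := by
        rw [← C.card_units]
        exact pow_card_eq_one'
      rw [h1, map_one, mul_one, mul_inv_cancel]
    have h2 := h3.trans (orderOf_dvd_of_pow_eq_one h1)
    have h4 : 3 ∣ Fintype.card K := by
      rw [hK]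
      exact dvd_pow_self 3 (by omega)
    have hq : 1 ≤ Fintype.card K := by
      have := Fintype.card_pos (α := K)
      omega
    omega

lemma ncard_ne_zero_prod : ({p : K × K × K | p.1 ≠ 0}).ncard = (Fintype.card K - 1) * Fintype.card K ^ 2 := by
  classical
  have h1 : {p : K × K × K | p.1 ≠ 0} = (({0} : Set K)ᶜ) ×ˢ (Set.univ : Set (K × K)) := by
    ext p
    simp
  rw [h1, Set.ncard_prod, Set.ncard_compl, Set.ncard_singleton, Set.ncard_univ, Nat.card_prod, Nat.card_eq_fintype_card]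
  ring

theorem RCtx.card_nine (C : RCtx K e) {m : ℕ} (hK : Fintype.card K = 3 ^ (2 * m + 1)) :
    Nat.card (ordS (borelOf K e) 9) = (Fintype.card K - 1) * Fintype.card K ^ 2 := by
  classical
  haveI : Fact (Nat.Prime 3) := ⟨Nat.prime_three⟩
  let f : K × K × K → ↥(twistedG2 K e) := fun p => C.rS p.1 p.2.1 p.2.2
  have hf : Function.Injective f := by
    rintro ⟨t, u, v⟩ ⟨t', u', v'⟩ h
    obtain ⟨rfl, rfl, rfl⟩ := C.rS_inj h
    rfl
  have hS : ordS (borelOf K e) 9 = f '' {p | p.1 ≠ 0} := by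
    ext y
    constructor
    · rintro ⟨hy, ho⟩
      obtain ⟨t, u, v, h | h⟩ := C.borel_three_cases hK hy (by rw [ho]; norm_num)
      · refine ⟨(t, u, v), ?_, h.symm⟩
        rintro (rfl : t = 0)
        have h1 : y ^ 3 = 1 := by rw [h]; exact C.rS0_cube u v
        have h2 := orderOf_dvd_of_pow_eq_one h1
        rw [ho] at h2
        omega
      · exfalso
        have h1 : y ^ 6 = 1 := by rw [h]; exact C.rS_aI_six t u v
        have h2 := orderOf_dvd_of_pow_eq_one h1
        rw [ho] at h2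
        omega
    · rintro ⟨⟨t, u, v⟩, ht, rfl⟩
      refine ⟨C.rS_mem_B t u v, ?_⟩
      have h : orderOf (C.rS t u v) = 3 ^ (1 + 1) := by
        apply orderOf_eq_prime_pow
        · rw [pow_one, C.rS_cube_eq_one_iff]
          exact ht
        · exact C.rS_nine' t u v
      simpa using h
  rw [Nat.card_coe_set_eq, hS, Set.ncard_image_of_injective _ hf, ncard_ne_zero_prod]

theorem RCtx.card_six (C : RCtx K e) {m : ℕ} (hK : Fintype.card K = 3 ^ (2 * m + 1)) :
    Nat.card (ordS (borelOf K e) 6) = (Fintype.card K - 1) * Fintype.card K ^ 2 := by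
  classical
  let f : K × K × K → ↥(twistedG2 K e) := fun p => C.rS p.2.1 (p.1 + p.2.1 * C.ρ p.2.1) p.2.2 * C.aI
  have hf : Function.Injective f := by
    rintro ⟨a, t, v⟩ ⟨a', t', v'⟩ h
    have h1 := mul_right_cancel h
    obtain ⟨rfl, h2, rfl⟩ := C.rS_inj h1
    have h3 : a = a' := add_right_cancel h2
    rw [h3]
  have hS : ordS (borelOf K e) 6 = f '' {p | p.1 ≠ 0} := by
    ext y
    constructor
    · rintro ⟨hy, ho⟩
      obtain ⟨t, u, v, h | h⟩ := C.borel_three_cases hK hy (by rw [ho]; norm_num)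
      · exfalso
        have h1 : y ^ 9 = 1 := by rw [h]; exact C.rS_nine' t u v
        have h2 := orderOf_dvd_of_pow_eq_one h1
        rw [ho] at h2
        omega
      · refine ⟨(u - t * C.ρ t, t, v), ?_, ?_⟩
        · intro h0
          have h0' : u = t * C.ρ t := sub_eq_zero.1 h0
          have h1 : y ^ 2 = 1 := by
            rw [h, C.sq_rS_aI, h0', sub_self, mul_zero, C.rS_zero]
          have h2 := orderOf_dvd_of_pow_eq_one h1
          rw [ho] at h2
          omega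
        · show C.rS t (u - t * C.ρ t + t * C.ρ t) v * C.aI = y
          rw [sub_add_cancel, h]
    · rintro ⟨⟨a, t, v⟩, ha, rfl⟩
      refine ⟨mul_mem (C.rS_mem_B _ _ _) (C.rH_mem_B _), ?_⟩
      apply order_six_of (C.rS_aI_six _ _ _) _ (C.rS_aI_cube_ne _ _ _)
      show (C.rS t (a + t * C.ρ t) v * C.aI) ^ 2 ≠ 1
      rw [C.sq_rS_aI]
      intro h
      have h1 := (C.rS_inj (h.trans C.rS_zero.symm)).2.1
      apply ha
      show a = 0
      linear_combination -h1
  rw [Nat.card_coe_set_eq, hS, Set.ncard_image_of_injective _ hf, ncard_ne_zero_prod]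

theorem RCtx.card_three (C : RCtx K e) {m : ℕ} (hK : Fintype.card K = 3 ^ (2 * m + 1)) :
    Nat.card (ordS (borelOf K e) 3) = Fintype.card K ^ 2 - 1 := by
  classical
  haveI : Fact (Nat.Prime 3) := ⟨Nat.prime_three⟩
  let f : K × K → ↥(twistedG2 K e) := fun p => C.rS 0 p.1 p.2
  have hf : Function.Injective f := by
    rintro ⟨u, v⟩ ⟨u', v'⟩ h
    obtain ⟨-, rfl, rfl⟩ := C.rS_inj h
    rfl
  have hS : ordS (borelOf K e) 3 = f '' (({0} : Set (K × K))ᶜ) := by
    ext y
    constructor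
    · rintro ⟨hy, ho⟩
      obtain ⟨t, u, v, h | h⟩ := C.borel_three_cases hK hy (by rw [ho])
      · have h1 : y ^ 3 = 1 := by rw [← ho]; exact pow_orderOf_eq_one y
        rw [h, C.rS_cube_eq_one_iff] at h1
        subst h1
        refine ⟨(u, v), ?_, h.symm⟩
        intro h0
        have h2 : u = 0 := congrArg Prod.fst h0
        have h3 : v = 0 := congrArg Prod.snd h0
        subst h2 h3
        rw [C.rS_zero] at h
        rw [h, orderOf_one] at ho
        omega
      · exfalso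
        apply C.rS_aI_cube_ne t u v
        rw [← h, ← ho]
        exact pow_orderOf_eq_one y
    · rintro ⟨⟨u, v⟩, huv, rfl⟩
      refine ⟨C.rS_mem_B _ _ _, ?_⟩
      apply orderOf_eq_prime (C.rS0_cube u v)
      intro h
      apply huv
      obtain ⟨-, h2, h3⟩ := C.rS_inj (h.trans C.rS_zero.symm)
      rw [h2, h3]
      rfl
  rw [Nat.card_coe_set_eq, hS, Set.ncard_image_of_injective _ hf, Set.ncard_compl, Set.ncard_singleton, Nat.card_prod, Nat.card_eq_fintype_card]
  congr 1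
  ring

end borel

/-- The main count, in terms of `Fintype.card K`. -/
theorem RCtx.count_main (C : RCtx K e) {m : ℕ} (hm : 1 ≤ m) (hK : Fintype.card K = 3 ^ (2 * m + 1)) (hS : IsSimpleGroup ↥(twistedG2 K e)) :
    Nat.card {g : ↥(twistedG2 K e) // orderOf g = 2} = (3 ^ (2 * m + 1)) ^ 2 * ((3 ^ (2 * m + 1)) ^ 2 - 3 ^ (2 * m + 1) + 1) ∧
    Nat.card {g : ↥(twistedG2 K e) // orderOf g = 3} = ((3 ^ (2 * m + 1)) ^ 2 - 1) * ((3 ^ (2 * m + 1)) ^ 3 + 1) ∧
    Nat.card {g : ↥(twistedG2 K e) // orderOf g = 6} = (3 ^ (2 * m + 1)) ^ 2 * (3 ^ (2 * m + 1) - 1) * ((3 ^ (2 * m + 1)) ^ 3 + 1) ∧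
    Nat.card {g : ↥(twistedG2 K e) // orderOf g = 9} = (3 ^ (2 * m + 1)) ^ 2 * (3 ^ (2 * m + 1) - 1) * ((3 ^ (2 * m + 1)) ^ 3 + 1) ∧
    (∀ i : ℕ, 2 < i → i ∣ 3 ^ (2 * m + 1) - 1 →
      2 * Nat.card {g : ↥(twistedG2 K e) // orderOf g = i} = Nat.totient i * (3 ^ (2 * m + 1)) ^ 3 * ((3 ^ (2 * m + 1)) ^ 3 + 1)) ∧
    (∀ i : ℕ, 1 < i → i ∣ (3 ^ (2 * m + 1) + 1) / 4 →
      6 * Nat.card {g : ↥(twistedG2 K e) // orderOf g = i} =
          Nat.totient i * (3 ^ (2 * m + 1)) ^ 3 * (3 ^ (2 * m + 1) - 1) * ((3 ^ (2 * m + 1)) ^ 2 - 3 ^ (2 * m + 1) + 1) ∧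
        2 * Nat.card {g : ↥(twistedG2 K e) // orderOf g = 2 * i} =
          Nat.totient i * (3 ^ (2 * m + 1)) ^ 3 * (3 ^ (2 * m + 1) - 1) * ((3 ^ (2 * m + 1)) ^ 2 - 3 ^ (2 * m + 1) + 1)) ∧
    (∀ i : ℕ, 1 < i → i ∣ 3 ^ (2 * m + 1) - 3 ^ (m + 1) + 1 →
      6 * Nat.card {g : ↥(twistedG2 K e) // orderOf g = i} =
        Nat.totient i * (3 ^ (2 * m + 1)) ^ 3 * ((3 ^ (2 * m + 1)) ^ 2 - 1) * (3 ^ (2 * m + 1) + 3 ^ (m + 1) + 1)) ∧
    (∀ i : ℕ, 1 < i → i ∣ 3 ^ (2 * m + 1) + 3 ^ (m + 1) + 1 →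
      6 * Nat.card {g : ↥(twistedG2 K e) // orderOf g = i} =
        Nat.totient i * (3 ^ (2 * m + 1)) ^ 3 * ((3 ^ (2 * m + 1)) ^ 2 - 1) * (3 ^ (2 * m + 1) - 3 ^ (m + 1) + 1)) := by
  classical
  obtain ⟨T₁, T₂, h1, h2, -, -, h5, h6, h7, h8, hprod⟩ := C.tori_named' hm hK hS
  refine ⟨?_, ?_, ?_, ?_, ?_, ?_, ?_, ?_⟩
  · rw [← hK, ← C.card_invol]
    apply Nat.card_congr
    apply Equiv.subtypeEquivRight
    intro g
    constructor
    · intro h
      have h1 : g ^ 2 = 1 := by rw [← h]; exact pow_orderOf_eq_one g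
      refine ⟨by rw [← pow_two, h1], ?_⟩
      rintro rfl
      rw [orderOf_one] at h
      omega
    · rintro ⟨h, h0⟩
      haveI : Fact (Nat.Prime 2) := ⟨Nat.prime_two⟩
      exact orderOf_eq_prime (by rw [pow_two, h]) h0
  · rw [C.count_borel (n := 2 * m) hK (Or.inl rfl), C.card_three hK, hK]
    ring
  · rw [C.count_borel (n := 2 * m) hK (Or.inr (Or.inl rfl)), C.card_six hK, hK]
    ring
  · rw [C.count_borel (n := 2 * m) hK (Or.inr (Or.inr rfl)), C.card_nine hK, hK]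
    ring
  · intro i hi hd
    rw [← hK] at hd ⊢
    exact C.count_minus hm hK hi hd
  · intro i hi hd
    rw [← hK] at hd ⊢
    have h8' : 3 ^ (2 * m + 1) % 8 = 3 := card_mod_eight
    rw [← hK] at h8'
    have hodd : Odd i := by
      have h1 : Odd ((Fintype.card K + 1) / 4) := by
        rw [Nat.odd_iff]
        omega
      exact h1.of_dvd_nat hd
    have hi2 : 2 < i := by
      rw [Nat.odd_iff] at hodd
      omega
    obtain ⟨p, hp, hpi⟩ := Nat.exists_prime_and_dvd (show i ≠ 1 by omega)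
    have hp2 : p ≠ 2 := by
      rintro rfl
      rw [Nat.odd_iff] at hodd
      omega
    have hpq : p ∣ Fintype.card K + 1 := (hpi.trans hd).trans (Nat.div_dvd_of_dvd (by omega))
    have hq1 : 1 ≤ Fintype.card K := by omega
    have hc1 := C.count_plus_aux hm hK hi2 hp hp2 hpq hpi
    have hc2 := C.count_plus_aux hm hK (j := 2 * i) (by omega) hp hp2 hpq (Dvd.dvd.mul_left hpi 2)
    rw [C.card_G, C.card_ord_E₀ hm hK hd, q_cube hq1] at hc1
    rw [C.card_G, C.card_ord_E₀_two hm hK hd, q_cube hq1] at hc2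
    have hq0 : 0 < Fintype.card K + 1 := by omega
    generalize Nat.card {g : ↥(twistedG2 K e) // orderOf g = i} = c₁ at hc1 ⊢
    generalize Nat.card {g : ↥(twistedG2 K e) // orderOf g = 2 * i} = c₂ at hc2 ⊢
    generalize Fintype.card K + 1 = d at hc1 hc2 hq0
    generalize Fintype.card K ^ 3 = q3 at hc1 hc2 ⊢
    generalize Fintype.card K - 1 = d' at hc1 hc2 ⊢
    generalize Fintype.card K ^ 2 - Fintype.card K + 1 = o at hc1 hc2 ⊢
    constructor
    · apply Nat.eq_of_mul_eq_mul_right hq0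
      calc 6 * c₁ * d = c₁ * (6 * d) := by ring
        _ = _ := hc1
        _ = _ := by ring
    · have hq3 : 0 < 3 * d := by omega
      apply Nat.eq_of_mul_eq_mul_right hq3
      calc 2 * c₂ * (3 * d) = c₂ * (6 * d) := by ring
        _ = _ := hc2
        _ = _ := by ring
  · intro i hi hd
    have := C.count_O hK hS h1 (c₂ := Nat.card T₂) hprod h5 hi (by rw [h7]; exact hd)
    rw [h8, hK] at this
    exact this
  · intro i hi hd
    have := C.count_O hK hS h2 (c₂ := Nat.card T₁) (by rw [hprod, mul_comm]) h6 hi (by rw [h8]; exact hd)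
    rw [h7, hK] at this
    exact this

end CfsgLib.Ree
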