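/-
The solvable subgroups of the small Ree groups.
-/
import Cfsg.Agent.Lib.Ree.Count2

set_option autoImplicit false
set_option synthInstance.maxHeartbeats 400000
set_option synthInstance.maxSize 1024

namespace CfsgLib.Ree

open Cfsg.Lie Cfsg.Lie.ChevalleyDatum CfsgLib.BN CfsgLib.Chev CfsgLib.H9.SL2Cl Matrix

section general

variable {Γ : Type*} [Group Γ]

/-- The conjugate of a subgroup. -/
def cj (k : Γ) (A : Subgroup Γ) : Subgroup Γ := A.map (MulAut.conj k).toMonoidHom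

lemma mem_cj {k x : Γ} {A : Subgroup Γ} : x ∈ cj k A ↔ k⁻¹ * x * k ∈ A := by
  constructor
  · rintro ⟨a, ha, rfl⟩
    have e1 : k⁻¹ * ((MulAut.conj k).toMonoidHom a) * k = a := by
      show k⁻¹ * (k * a * k⁻¹) * k = a
      group
    rw [e1]
    exact ha
  · intro h
    refine ⟨_, h, ?_⟩
    show k * (k⁻¹ * x * k) * k⁻¹ = x
    group

lemma card_cj (k : Γ) (A : Subgroup Γ) : Nat.card (cj k A) = Nat.card A :=
  Subgroup.card_map_of_injective (MulAut.conj k).injective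

lemma cyclic_cj {k : Γ} {A : Subgroup Γ} (h : IsCyclic A) : IsCyclic (cj k A) :=
  isCyclic_of_surjective (((MulAut.conj k).toMonoidHom).subgroupMap A) (MonoidHom.subgroupMap_surjective _ _)

lemma norm_conj_le {Y A : Subgroup Γ} {k : Γ}
    (hk : Subgroup.normalizer (cj k Y : Set Γ) ≤ Subgroup.normalizer (A : Set Γ)) :
    Subgroup.normalizer (Y : Set Γ) ≤ Subgroup.normalizer (cj k⁻¹ A : Set Γ) := by
  intro n hn
  rw [Subgroup.mem_normalizer_iff] at hn ⊢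
  have h1 : k * n * k⁻¹ ∈ Subgroup.normalizer (cj k Y : Set Γ) := by
    rw [Subgroup.mem_normalizer_iff]
    intro h
    rw [mem_cj, mem_cj]
    have e1 : k⁻¹ * (k * n * k⁻¹ * h * (k * n * k⁻¹)⁻¹) * k = n * (k⁻¹ * h * k) * n⁻¹ := by group
    rw [e1]
    exact hn _
  have h2 := hk h1
  rw [Subgroup.mem_normalizer_iff] at h2
  intro h
  rw [mem_cj, mem_cj]
  have e1 : k⁻¹⁻¹ * (n * h * n⁻¹) * k⁻¹ = k * n * k⁻¹ * (k⁻¹⁻¹ * h * k⁻¹) * (k * n * k⁻¹)⁻¹ := by group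
  rw [e1]
  exact h2 _

/-- The `r`-torsion of an abelian subgroup. -/
def torsion (Y : Subgroup Γ) (hc : ∀ x ∈ Y, ∀ y ∈ Y, x * y = y * x) (r : ℕ) : Subgroup Γ where
  carrier := {x | x ∈ Y ∧ x ^ r = 1}
  mul_mem' := by
    rintro a b ⟨ha, ha1⟩ ⟨hb, hb1⟩
    refine ⟨mul_mem ha hb, ?_⟩
    have hab : Commute a b := hc a ha b hb
    rw [hab.mul_pow, ha1, hb1, one_mul]
  one_mem' := ⟨one_mem _, one_pow _⟩
  inv_mem' := by
    rintro a ⟨ha, ha1⟩
    refine ⟨inv_mem ha, ?_⟩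
    rw [inv_pow, ha1, inv_one]

lemma mem_torsion {Y : Subgroup Γ} {hc : ∀ x ∈ Y, ∀ y ∈ Y, x * y = y * x} {r : ℕ} {x : Γ} : x ∈ torsion Y hc r ↔ x ∈ Y ∧ x ^ r = 1 := Iff.rfl

lemma norm_le_torsion (Y : Subgroup Γ) (hc : ∀ x ∈ Y, ∀ y ∈ Y, x * y = y * x) (r : ℕ) :
    Subgroup.normalizer (Y : Set Γ) ≤ Subgroup.normalizer (torsion Y hc r : Set Γ) := by
  intro n hn
  rw [Subgroup.mem_normalizer_iff] at hn ⊢
  intro h
  rw [mem_torsion, mem_torsion, ← hn h, conj_pow, conj_eq_one_iff]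

end general

variable {K : Type*} [Field K] [Fintype K] {e : ℕ}

/-- The admissible subgroups `A`. -/
def Good (K : Type*) [Field K] [Fintype K] (e m : ℕ) (A : Subgroup ↥(twistedG2 K e)) : Prop :=
  (∃ P : Sylow 2 ↥(twistedG2 K e), A = P) ∨ (∃ P : Sylow 3 ↥(twistedG2 K e), A = P) ∨
    (IsCyclic A ∧ (Nat.card A = (3 ^ (2 * m + 1) - 1) / 2 ∨ Nat.card A = (3 ^ (2 * m + 1) + 1) / 4 ∨
      Nat.card A = 3 ^ (2 * m + 1) - 3 ^ (m + 1) + 1 ∨ Nat.card A = 3 ^ (2 * m + 1) + 3 ^ (m + 1) + 1))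

/-- Elementary abelian `3`-subgroups. -/
theorem RCtx.key_three (C : RCtx K e) {n : ℕ} (hK : Fintype.card K = 3 ^ n) {Y : Subgroup ↥(twistedG2 K e)} (hY : Y ≠ ⊥) (hexp : ∀ x ∈ Y, x ^ 3 = 1) :
    ∃ P : Sylow 3 ↥(twistedG2 K e), Subgroup.normalizer (Y : Set ↥(twistedG2 K e)) ≤ Subgroup.normalizer ((P : Subgroup ↥(twistedG2 K e)) : Set ↥(twistedG2 K e)) := by
  classical
  haveI : Fact (Nat.Prime 3) := ⟨Nat.prime_three⟩
  have hp : IsPGroup 3 Y := fun x => ⟨1, Subtype.ext (by simpa using hexp x x.2)⟩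
  obtain ⟨P, hP⟩ := hp.exists_le_sylow
  refine ⟨P, fun g hg => ?_⟩
  have h1 : g • P = P := by
    by_contra hne
    have hb := C.sylow_TI hK (g • P) P hne
    apply hY
    rw [eq_bot_iff]
    intro y hy
    rw [← hb]
    refine ⟨?_, hP hy⟩
    rw [Sylow.coe_subgroup_smul]
    have h2 : g⁻¹ * y * g ∈ Y := by
      have := (Subgroup.mem_normalizer_iff.1 (inv_mem hg) y).1 hy
      simpa using this
    refine ⟨_, hP h2, ?_⟩
    show g * (g⁻¹ * y * g) * g⁻¹ = y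
    group
  exact Sylow.smul_eq_iff_mem_normalizer.1 h1

lemma mem_cent_cj {Γ : Type*} [Group Γ] {a k z : Γ} : a ∈ Subgroup.centralizer ({k * z * k⁻¹} : Set Γ) ↔ k⁻¹ * a * k ∈ Subgroup.centralizer ({z} : Set Γ) := by
  have e1 : a = k * (k⁻¹ * a * k) * k⁻¹ := by group
  have := @mem_cent_conj Γ _ k z (k⁻¹ * a * k)
  rwa [← e1] at this

lemma cj_ne_bot {Γ : Type*} [Group Γ] {Y : Subgroup Γ} (h : Y ≠ ⊥) (k : Γ) : cj k Y ≠ ⊥ := by
  intro h1
  apply h
  rw [eq_bot_iff]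
  intro y hy
  have h2 : k * y * k⁻¹ ∈ cj k Y := by
    rw [mem_cj]
    have e1 : k⁻¹ * (k * y * k⁻¹) * k = y := by group
    rw [e1]
    exact hy
  rw [h1, Subgroup.mem_bot] at h2
  rw [Subgroup.mem_bot]
  exact conj_eq_one_iff.1 h2

lemma pow_in_cj {Γ : Type*} [Group Γ] {Y : Subgroup Γ} {k x : Γ} {r : ℕ} (hexp : ∀ x ∈ Y, x ^ r = 1) (hx : x ∈ cj k Y) : x ^ r = 1 := by
  rw [mem_cj] at hx
  have h1 := hexp _ hx
  have e1 : (k⁻¹ * x * k) ^ r = k⁻¹ * x ^ r * k := by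
    have := conj_pow (a := k⁻¹) (b := x) (i := r)
    simpa using this
  rw [e1] at h1
  have e2 : x ^ r = k * (k⁻¹ * x ^ r * k) * k⁻¹ := by group
  rw [e2, h1]
  group

/-- Normalisers of subgroups in the split torus. -/
theorem RCtx.key_minus (C : RCtx K e) {m : ℕ} (hm : 1 ≤ m) (hK : Fintype.card K = 3 ^ (2 * m + 1)) {Y : Subgroup ↥(twistedG2 K e)} (hY : Y ≠ ⊥)
    {r : ℕ} (hr : r.Prime) (hr2 : r ≠ 2) (hd : r ∣ Fintype.card K - 1) (hexp : ∀ x ∈ Y, x ^ r = 1) (hc : ∀ x ∈ Y, ∀ y ∈ Y, x * y = y * x) :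
    ∃ A : Subgroup ↥(twistedG2 K e), Subgroup.normalizer (Y : Set ↥(twistedG2 K e)) ≤ Subgroup.normalizer (A : Set ↥(twistedG2 K e)) ∧ Good K e m A := by
  classical
  obtain ⟨z, hz, hz1⟩ := exists_ne_one_of_ne_bot hY
  obtain ⟨k, y, hy, hk⟩ := C.prop_H (n := 2 * m) hK hr hr2 hd (hexp z hz) hz1
  obtain ⟨A, hA, hAc, hAH, hAN, -⟩ := C.exists_A_minus hm hK
  have hrodd := hr.odd_of_ne_two hr2
  have hle : cj k Y ≤ C.rH.range := by
    intro a ha
    rw [mem_cj] at ha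
    rw [← C.cent_rH hy, ← hk, mem_cent_cj, Subgroup.mem_centralizer_singleton_iff]
    exact hc _ ha z hz
  have hcent : ∀ x ∈ cj k Y, x ≠ 1 → Subgroup.centralizer ({x} : Set ↥(twistedG2 K e)) = C.rH.range := by
    intro x hx hx1
    obtain ⟨y', rfl⟩ := hle hx
    apply C.cent_rH
    intro h2
    apply hx1
    apply eq_one_of_sq_odd hrodd _ (pow_in_cj hexp hx)
    rw [← map_mul, h2, map_one]
  have h1 := norm_eq_of C.H₀_cyclic hle hcent le_rfl (cj_ne_bot hY k)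
  have h2 : Subgroup.normalizer (C.rH.range : Set ↥(twistedG2 K e)) = Subgroup.normalizer (A : Set ↥(twistedG2 K e)) := by
    apply Subgroup.eq_of_le_of_card_ge (norm_cyc_ge C.H₀_cyclic hAH)
    rw [hAN, C.card_norm_H₀ hm hK]
  refine ⟨cj k⁻¹ A, norm_conj_le (by rw [h1, h2]), Or.inr (Or.inr ⟨cyclic_cj hA, Or.inl ?_⟩)⟩
  rw [card_cj, hAc, hK]

/-- Normalisers of subgroups in the torus `T₀`. -/
theorem RCtx.key_plus (C : RCtx K e) {m : ℕ} (hm : 1 ≤ m) (hK : Fintype.card K = 3 ^ (2 * m + 1)) {Y : Subgroup ↥(twistedG2 K e)} (hY : Y ≠ ⊥)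
    {r : ℕ} (hr : r.Prime) (hr2 : r ≠ 2) (hd : r ∣ Fintype.card K + 1) (hexp : ∀ x ∈ Y, x ^ r = 1) (hc : ∀ x ∈ Y, ∀ y ∈ Y, x * y = y * x) :
    ∃ A : Subgroup ↥(twistedG2 K e), Subgroup.normalizer (Y : Set ↥(twistedG2 K e)) ≤ Subgroup.normalizer (A : Set ↥(twistedG2 K e)) ∧ Good K e m A := by
  classical
  obtain ⟨z, hz, hz1⟩ := exists_ne_one_of_ne_bot hY
  obtain ⟨k, -, hk⟩ := C.cent_plus hK hr hr2 hd (hexp z hz) hz1
  obtain ⟨A, hA, hAc, -, hmem, -, hAN, -⟩ := C.exists_A_plus hm hK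
  have hrodd := hr.odd_of_ne_two hr2
  have hle : cj k Y ≤ C.E₀ := by
    intro a ha
    rw [mem_cj] at ha
    rw [← hk, mem_cent_cj, Subgroup.mem_centralizer_singleton_iff]
    exact hc _ ha z hz
  obtain ⟨x, hx, hx1⟩ := exists_ne_one_of_ne_bot (cj_ne_bot hY k)
  have hcent : Subgroup.centralizer ({x} : Set ↥(twistedG2 K e)) = C.E₀ := by
    apply C.S₀_cent hK
    refine ⟨hle hx, fun h2 => hx1 ?_⟩
    exact eq_one_of_sq_odd hrodd h2 (pow_in_cj hexp hx)
  have h1 := cent_sub_abelian C.E₀_comm hle hx hcent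
  have h2 := norm_le_of_cent h1
  have h3 : Subgroup.normalizer (C.E₀ : Set ↥(twistedG2 K e)) ≤ Subgroup.normalizer (A : Set ↥(twistedG2 K e)) := by
    intro n hn
    rw [Subgroup.mem_normalizer_iff] at hn ⊢
    intro h
    rw [hmem, hmem, ← hn h, conj_pow, conj_eq_one_iff]
  refine ⟨cj k⁻¹ A, norm_conj_le (h2.trans h3), Or.inr (Or.inr ⟨cyclic_cj hA, Or.inr (Or.inl ?_)⟩)⟩
  rw [card_cj, hAc, hK]

/-- Normalisers of subgroups of the odd tori. -/
theorem RCtx.key_O (C : RCtx K e) {m : ℕ} (hm : 1 ≤ m) (hK : Fintype.card K = 3 ^ (2 * m + 1)) (hS : IsSimpleGroup ↥(twistedG2 K e)) {Y : Subgroup ↥(twistedG2 K e)} (hY : Y ≠ ⊥)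
    {r : ℕ} (hr : r.Prime) (hd : r ∣ Fintype.card K ^ 2 - Fintype.card K + 1) (hexp : ∀ x ∈ Y, x ^ r = 1) (hc : ∀ x ∈ Y, ∀ y ∈ Y, x * y = y * x) :
    ∃ A : Subgroup ↥(twistedG2 K e), Subgroup.normalizer (Y : Set ↥(twistedG2 K e)) ≤ Subgroup.normalizer (A : Set ↥(twistedG2 K e)) ∧ Good K e m A := by
  classical
  obtain ⟨z, hz, hz1⟩ := exists_ne_one_of_ne_bot hY
  have hOT : C.IsOT (Subgroup.centralizer {z}) := ⟨z, r, hr, hd, hexp z hz, hz1, rfl⟩
  have hle : Y ≤ Subgroup.centralizer {z} := by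
    intro a ha
    rw [Subgroup.mem_centralizer_singleton_iff]
    exact hc a ha z hz
  refine ⟨Subgroup.centralizer {z}, (hOT.norm_sub C hK hS Y hle hY).le, Or.inr (Or.inr ⟨hOT.cyclic hK hS, ?_⟩)⟩
  obtain ⟨T₁, T₂, -, -, -, h4, -, -, h7, h8, -⟩ := C.tori_named' hm hK hS
  rcases h4 _ hOT with h | h
  · right; right; left
    rw [← h.card_eq, h7]
  · right; right; right
    rw [← h.card_eq, h8]

/-- Elementary abelian subgroups of odd exponent. -/
theorem RCtx.key_odd (C : RCtx K e) {m : ℕ} (hm : 1 ≤ m) (hK : Fintype.card K = 3 ^ (2 * m + 1)) (hS : IsSimpleGroup ↥(twistedG2 K e)) {Y : Subgroup ↥(twistedG2 K e)} (hY : Y ≠ ⊥)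
    {r : ℕ} (hr : r.Prime) (hr2 : r ≠ 2) (hexp : ∀ x ∈ Y, x ^ r = 1) (hc : ∀ x ∈ Y, ∀ y ∈ Y, x * y = y * x) :
    ∃ A : Subgroup ↥(twistedG2 K e), Subgroup.normalizer (Y : Set ↥(twistedG2 K e)) ≤ Subgroup.normalizer (A : Set ↥(twistedG2 K e)) ∧ Good K e m A := by
  classical
  obtain ⟨z, hz, hz1⟩ := exists_ne_one_of_ne_bot hY
  haveI := Fact.mk hr
  have hord : orderOf z = r := orderOf_eq_prime (hexp z hz) hz1
  have hdvd : r ∣ Nat.card ↥(twistedG2 K e) := by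
    rw [← hord]
    exact orderOf_dvd_natCard z
  have hq1 : 1 ≤ Fintype.card K := Fintype.card_pos
  rw [C.card_G, q_cube hq1] at hdvd
  rcases (Nat.Prime.dvd_mul hr).1 hdvd with h | h
  · rcases (Nat.Prime.dvd_mul hr).1 h with h | h
    · have h1 := hr.dvd_of_dvd_pow h
      rw [hK] at h1
      have h2 := hr.dvd_of_dvd_pow h1
      have h3 : r = 3 := (Nat.prime_dvd_prime_iff_eq hr Nat.prime_three).1 h2
      subst h3
      obtain ⟨P, hP⟩ := C.key_three hK hY hexp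
      exact ⟨P, hP, Or.inr (Or.inl ⟨P, rfl⟩)⟩
    · exact C.key_minus hm hK hY hr hr2 h hexp hc
  · rcases (Nat.Prime.dvd_mul hr).1 h with h | h
    · exact C.key_plus hm hK hY hr hr2 h hexp hc
    · exact C.key_O hm hK hS hY hr h hexp hc

lemma RCtx.two_invol (C : RCtx K e) {m : ℕ} (hK : Fintype.card K = 3 ^ (2 * m + 1)) {x : ↥(twistedG2 K e)} {a : ℕ} (h : x ^ 2 ^ a = 1) : x * x = 1 := by
  classical
  haveI : Fact (Nat.Prime 2) := ⟨Nat.prime_two⟩
  obtain ⟨P, hP⟩ := (zpowers_isP h).exists_le_sylow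
  exact (C.sylow_two_spec hK P).2 x (hP (Subgroup.mem_zpowers x))

lemma RCtx.comm_of_sylow (C : RCtx K e) {m : ℕ} (hK : Fintype.card K = 3 ^ (2 * m + 1)) {x y c : ↥(twistedG2 K e)} (hc : x * y * x⁻¹ * y⁻¹ = c)
    (hcx : c * x = x * c) (hcy : c * y = y * c) (hc2 : c * c = 1) : c = 1 := by
  have hx0 : orderOf x ≠ 0 := (orderOf_pos x).ne'
  have hy0 : orderOf y ≠ 0 := (orderOf_pos y).ne'
  obtain ⟨a, k, hk, hak⟩ := Nat.exists_eq_two_pow_mul_odd hx0
  obtain ⟨b, l, hl, hbl⟩ := Nat.exists_eq_two_pow_mul_odd hy0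
  have h1 : (x ^ k) ^ 2 ^ a = 1 := by
    rw [← pow_mul, mul_comm, ← hak]
    exact pow_orderOf_eq_one x
  have h2 : (y ^ l) ^ 2 ^ b = 1 := by
    rw [← pow_mul, mul_comm, ← hbl]
    exact pow_orderOf_eq_one y
  have ha := C.two_invol hK h1
  have hb := C.two_invol hK h2
  have hcodd : ∀ n : ℕ, Odd n → c ^ n = c := by
    rintro n ⟨t, rfl⟩
    rw [pow_succ, pow_mul, pow_two, hc2, one_pow, one_mul]
  have hpow : ∀ n : ℕ, x ^ n * y * (x ^ n)⁻¹ = c ^ n * y := by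
    intro n
    induction n with
    | zero => simp
    | succ n ih =>
      have hcn : Commute (c ^ n) x := (show Commute c x from hcx).pow_left n
      have e0 : x * y * x⁻¹ = c * y := by rw [← hc]; group
      calc x ^ (n + 1) * y * (x ^ (n + 1))⁻¹ = x * (x ^ n * y * (x ^ n)⁻¹) * x⁻¹ := by
            rw [pow_succ', _root_.mul_inv_rev]
            group
        _ = x * (c ^ n * y) * x⁻¹ := by rw [ih]
        _ = c ^ n * (x * y * x⁻¹) := by
            have : x * c ^ n = c ^ n * x := hcn.eq.symm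
            calc x * (c ^ n * y) * x⁻¹ = (x * c ^ n) * y * x⁻¹ := by group
              _ = (c ^ n * x) * y * x⁻¹ := by rw [this]
              _ = _ := by group
        _ = c ^ n * (c * y) := by rw [e0]
        _ = c ^ (n + 1) * y := by rw [pow_succ, mul_assoc]
  have h3 : x ^ k * y * (x ^ k)⁻¹ = c * y := by rw [hpow, hcodd k hk]
  have hcyC : Commute c y := hcy
  have h4 : x ^ k * y ^ l * (x ^ k)⁻¹ = c * y ^ l := by
    rw [← conj_pow, h3, hcyC.mul_pow, hcodd l hl]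
  have hainv : (x ^ k)⁻¹ = x ^ k := inv_eq_of_mul_eq_one_left ha
  have hsq : (x ^ k * y ^ l) * (x ^ k * y ^ l) = c := by
    rw [hainv] at h4
    calc (x ^ k * y ^ l) * (x ^ k * y ^ l) = (x ^ k * y ^ l * x ^ k) * y ^ l := by group
      _ = c * y ^ l * y ^ l := by rw [h4]
      _ = c * (y ^ l * y ^ l) := by group
      _ = c := by rw [hb, mul_one]
  have h5 : (x ^ k * y ^ l) ^ 2 ^ 2 = 1 := by
    rw [show (2 : ℕ) ^ 2 = 2 + 2 from rfl, pow_add, pow_two, hsq, hc2]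
  have h6 := C.two_invol hK h5
  rw [← hsq, h6]

/-- Elementary abelian `2`-subgroups of order at least `4`. -/
theorem RCtx.key_two (C : RCtx K e) {m : ℕ} (hm : 1 ≤ m) (hK : Fintype.card K = 3 ^ (2 * m + 1)) {Y : Subgroup ↥(twistedG2 K e)}
    (hexp : ∀ x ∈ Y, x * x = 1) (hcard : 2 < Nat.card Y) :
    ∃ A : Subgroup ↥(twistedG2 K e), Subgroup.normalizer (Y : Set ↥(twistedG2 K e)) ≤ Subgroup.normalizer (A : Set ↥(twistedG2 K e)) ∧ Good K e m A := by
  classical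
  haveI : Fact (Nat.Prime 2) := ⟨Nat.prime_two⟩
  have hp : IsPGroup 2 Y := fun x => ⟨1, Subtype.ext (by
    have := hexp x x.2
    simpa [pow_two] using this)⟩
  obtain ⟨P, hP⟩ := hp.exists_le_sylow
  obtain ⟨hP8, hP2⟩ := C.sylow_two_spec hK P
  have hdvd : Nat.card Y ∣ 8 := by
    rw [← hP8]
    exact Subgroup.card_dvd_of_le hP
  have hle8 := Nat.le_of_dvd (by norm_num) hdvd
  by_cases h8 : Nat.card Y = 8
  · refine ⟨Y, le_rfl, Or.inl ⟨P, ?_⟩⟩
    apply Subgroup.eq_of_le_of_card_ge hP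
    rw [hP8, h8]
  have h4 : Nat.card Y = 4 := by
    generalize Nat.card Y = c at *
    interval_cases c <;> first | rfl | omega
  -- two elements
  obtain ⟨t, t', ht, ht', ht1, ht'1, htt'⟩ : ∃ t t', t ∈ Y ∧ t' ∈ Y ∧ t ≠ 1 ∧ t' ≠ 1 ∧ t ≠ t' := by
    have h2 : 2 < (Y : Set ↥(twistedG2 K e)).ncard := by
      rw [← Nat.card_coe_set_eq]
      exact hcard
    obtain ⟨a, b, c, ha, hb, hc, hab, hac, hbc⟩ := (Set.two_lt_ncard_iff (Set.toFinite _)).1 h2
    by_cases ha1 : a = 1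
    · exact ⟨b, c, hb, hc, by rw [← ha1]; exact hab.symm, by rw [← ha1]; exact hac.symm, hbc⟩
    · by_cases hb1 : b = 1
      · exact ⟨a, c, ha, hc, ha1, by rw [← hb1]; exact hbc.symm, hac⟩
      · exact ⟨a, b, ha, hb, ha1, hb1, hab⟩
  have htc : t * t' = t' * t := by
    have h5 := inv_eq_of_mul_eq_one_left (hexp _ (mul_mem ht ht'))
    rw [_root_.mul_inv_rev, inv_eq_of_mul_eq_one_left (hexp _ ht), inv_eq_of_mul_eq_one_left (hexp _ ht')] at h5
    exact h5.symm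
  obtain ⟨g, hg⟩ := isConj_iff.1 (C.invol_conj (hexp t ht) ht1)
  set u := g⁻¹ * t' * g with hu
  have hgu : g * u * g⁻¹ = t' := by rw [hu]; group
  have hu2 : u * u = 1 := by
    have e1 : u * u = g⁻¹ * (t' * t') * g := by rw [hu]; group
    rw [e1, hexp t' ht']
    group
  have hu1 : u ≠ 1 := by
    intro h
    rw [h] at hgu
    apply ht'1
    rw [← hgu]
    group
  have hua : u ≠ C.aI := by
    intro h
    apply htt'
    rw [← hg, ← hgu, h]
  have hca : u * C.aI = C.aI * u := by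
    have h1 : C.aI = g⁻¹ * t * g := by rw [← hg]; group
    rw [hu, h1]
    calc g⁻¹ * t' * g * (g⁻¹ * t * g) = g⁻¹ * (t' * t) * g := by group
      _ = g⁻¹ * (t * t') * g := by rw [htc]
      _ = _ := by group
  obtain ⟨c, hc1, hc2⟩ := C.four_trans hK hu2 hu1 hua hca C.w₁_sq C.w₁_ne_one C.aI_ne_w₁.symm (C.aI_comm_w₁).symm
  set k := c * g⁻¹ with hk
  have hkt : k⁻¹ * C.aI * k = t := by
    have e1 : c⁻¹ * C.aI * c = C.aI := by
      rw [mul_assoc, ← hc1, ← mul_assoc, inv_mul_cancel, one_mul]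
    rw [hk, ← hg]
    calc (c * g⁻¹)⁻¹ * C.aI * (c * g⁻¹) = g * (c⁻¹ * C.aI * c) * g⁻¹ := by group
      _ = _ := by rw [e1]
  have hkt' : k⁻¹ * (c * u * c⁻¹) * k = t' := by
    rw [hk, ← hgu]
    group
  have haI : C.aI ∈ cj k Y := by
    rw [mem_cj, hkt]
    exact ht
  have hx : c * u * c⁻¹ ∈ cj k Y := by
    rw [mem_cj, hkt']
    exact ht'
  have hw : C.w₁ ∈ cj k Y := by
    rcases hc2 with h | h
    · rwa [h] at hx
    · rw [h] at hx
      have := mul_mem haI hx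
      rwa [← mul_assoc, C.aI_sq, one_mul] at this
  have hX : ∀ y, C.isX y → y ∈ cj k Y := by
    rintro y (rfl | rfl | rfl)
    · exact haI
    · exact hw
    · exact mul_mem haI hw
  have hW : insert (1 : ↥(twistedG2 K e)) {y | C.isX y} = (cj k Y : Set ↥(twistedG2 K e)) := by
    apply Set.eq_of_subset_of_ncard_le (ht := Set.toFinite _)
    · rintro y (rfl | hy)
      · exact one_mem _
      · exact hX y hy
    · rw [Set.ncard_insert_of_notMem (hs := Set.toFinite _), ← Nat.card_coe_set_eq, ← Nat.card_coe_set_eq]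
      · have h1 : Nat.card ({y | C.isX y} : Set ↥(twistedG2 K e)) = 3 := C.card_isX
        have h2 : Nat.card (cj k Y : Set ↥(twistedG2 K e)) = Nat.card (cj k Y) := rfl
        rw [h1, h2, card_cj, h4]
      · intro h
        exact C.isX_ne_one h rfl
  have hall : ∀ y ∈ cj k Y, y ≠ 1 → C.isX y := by
    intro y hy hy1
    have h1 : y ∈ (cj k Y : Set ↥(twistedG2 K e)) := hy
    rw [← hW] at h1
    rcases h1 with h1 | h1
    · exact absurd h1 hy1
    · exact h1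
  have hN : Subgroup.normalizer (cj k Y : Set ↥(twistedG2 K e)) ≤ Subgroup.normalizer (C.E₀ : Set ↥(twistedG2 K e)) := by
    intro n hn
    apply C.mem_norm_E₀ hm hK
    · apply hall _ ((Subgroup.mem_normalizer_iff.1 hn _).1 haI)
      intro h
      exact C.aI_ne (conj_eq_one_iff.1 h)
    · apply hall _ ((Subgroup.mem_normalizer_iff.1 hn _).1 hw)
      intro h
      exact C.w₁_ne_one (conj_eq_one_iff.1 h)
  obtain ⟨A, hA, hAc, -, hmem, -, hAN, -⟩ := C.exists_A_plus hm hK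
  have h3 : Subgroup.normalizer (C.E₀ : Set ↥(twistedG2 K e)) ≤ Subgroup.normalizer (A : Set ↥(twistedG2 K e)) := by
    intro n hn
    rw [Subgroup.mem_normalizer_iff] at hn ⊢
    intro h
    rw [hmem, hmem, ← hn h, conj_pow, conj_eq_one_iff]
  refine ⟨cj k⁻¹ A, norm_conj_le (hN.trans h3), Or.inr (Or.inr ⟨cyclic_cj hA, Or.inr (Or.inl ?_)⟩)⟩
  rw [card_cj, hAc, hK]

lemma exists_last_derived {Γ : Type*} [Group Γ] [Group.IsSolvable Γ] [Nontrivial Γ] : ∃ n, derivedSeries Γ n ≠ ⊥ ∧ derivedSeries Γ (n + 1) = ⊥ := by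
  classical
  have h := (isSolvable_def Γ).1 inferInstance
  have h0 : Nat.find h ≠ 0 := by
    intro h1
    have h2 := Nat.find_spec h
    rw [h1, derivedSeries_zero] at h2
    exact top_ne_bot h2
  obtain ⟨n, hn⟩ := Nat.exists_eq_succ_of_ne_zero h0
  refine ⟨n, ?_, ?_⟩
  · apply Nat.find_min h
    omega
  · have h2 := Nat.find_spec h
    rw [hn] at h2
    exact h2

open scoped commutatorElement in
/-- The main theorem on solvable subgroups. -/
theorem RCtx.solv_main (C : RCtx K e) {m : ℕ} (hm : 1 ≤ m) (hK : Fintype.card K = 3 ^ (2 * m + 1)) (hS : IsSimpleGroup ↥(twistedG2 K e))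
    (S : Subgroup ↥(twistedG2 K e)) (hSolv : Group.IsSolvable S) :
    ∃ A : Subgroup ↥(twistedG2 K e), S ≤ Subgroup.normalizer (A : Set ↥(twistedG2 K e)) ∧ Good K e m A := by
  classical
  haveI : Fact (Nat.Prime 2) := ⟨Nat.prime_two⟩
  by_cases hbot : S = ⊥
  · obtain ⟨P⟩ : Nonempty (Sylow 2 ↥(twistedG2 K e)) := inferInstance
    refine ⟨P, ?_, Or.inl ⟨P, rfl⟩⟩
    rw [hbot]
    exact bot_le
  haveI : Nontrivial S := (Subgroup.nontrivial_iff_ne_bot S).2 hbot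
  obtain ⟨n, hn1, hn2⟩ := exists_last_derived (Γ := S)
  set D := derivedSeries S n with hD
  have hDn : D.Normal := derivedSeries_normal S n
  let Y : Subgroup ↥(twistedG2 K e) := D.map S.subtype
  have hY : Y ≠ ⊥ := by
    intro h
    exact hn1 ((Subgroup.map_eq_bot_iff_of_injective _ S.subtype_injective).1 h)
  have hcomm : ∀ x ∈ Y, ∀ y ∈ Y, x * y = y * x := by
    rintro _ ⟨x, hx, rfl⟩ _ ⟨y, hy, rfl⟩
    rw [derivedSeries_succ] at hn2
    have h1 := Subgroup.commutator_eq_bot_iff_le_centralizer.1 hn2 hx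
    rw [Subgroup.mem_centralizer_iff] at h1
    have h2 := h1 y hy
    have h3 := congrArg Subtype.val h2
    exact h3.symm
  have hSN : S ≤ Subgroup.normalizer (Y : Set ↥(twistedG2 K e)) := by
    have key : ∀ s ∈ S, ∀ y ∈ Y, s * y * s⁻¹ ∈ Y := by
      rintro s hs _ ⟨y, hy, rfl⟩
      refine ⟨_, hDn.conj_mem y hy ⟨s, hs⟩, ?_⟩
      simp only [map_mul, map_inv, Subgroup.subtype_apply]
    intro s hs
    rw [Subgroup.mem_normalizer_iff]
    intro h
    refine ⟨key s hs h, fun h1 => ?_⟩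
    have := key s⁻¹ (inv_mem hs) _ h1
    have e1 : s⁻¹ * (s * h * s⁻¹) * s⁻¹⁻¹ = h := by group
    rwa [e1] at this
  by_cases hodd : ∃ r : ℕ, r.Prime ∧ r ≠ 2 ∧ r ∣ Nat.card Y
  · obtain ⟨r, hr, hr2, hrd⟩ := hodd
    obtain ⟨z, hz, hz1, hz2⟩ := exists_prime_elt hr hrd
    have hY' : torsion Y hcomm r ≠ ⊥ := by
      intro h
      have h1 : z ∈ torsion Y hcomm r := ⟨hz, hz1⟩
      rw [h, Subgroup.mem_bot] at h1
      exact hz2 h1
    obtain ⟨A, hA, hG⟩ := C.key_odd hm hK hS hY' hr hr2 (fun x hx => hx.2) (fun x hx y hy => hcomm x hx.1 y hy.1)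
    exact ⟨A, hSN.trans ((norm_le_torsion Y hcomm r).trans hA), hG⟩
  push Not at hodd
  have hpow : Nat.card Y = 2 ^ (Nat.card Y).primeFactorsList.length := by
    apply Nat.eq_prime_pow_of_unique_prime_dvd Nat.card_pos.ne'
    intro d hdp hdi
    by_contra hne
    exact hodd d hdp hne hdi
  have hexp : ∀ x ∈ Y, x * x = 1 := by
    intro x hx
    apply C.two_invol hK (a := (Nat.card Y).primeFactorsList.length)
    rw [← hpow]
    have := pow_card_eq_one' (x := (⟨x, hx⟩ : Y))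
    exact congrArg Subtype.val this
  by_cases hc2 : 2 < Nat.card Y
  · obtain ⟨A, hA, hG⟩ := C.key_two hm hK hexp hc2
    exact ⟨A, hSN.trans hA, hG⟩
  have hY2 : Nat.card Y = 2 := by
    have h1 : Nat.card Y ≠ 1 := by
      intro h
      exact hY (Subgroup.eq_bot_of_card_eq Y h)
    have h0 : 0 < Nat.card Y := Nat.card_pos
    omega
  cases n with
  | zero =>
    rw [derivedSeries_zero] at hD
    have hYS : Y = S := by
      show D.map S.subtype = S
      rw [hD, ← MonoidHom.range_eq_map, Subgroup.range_subtype]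
    have hp : IsPGroup 2 Y := by
      apply IsPGroup.of_card (n := 1)
      rw [hY2, pow_one]
    obtain ⟨P, hP⟩ := hp.exists_le_sylow
    refine ⟨P, ?_, Or.inl ⟨P, rfl⟩⟩
    rw [← hYS]
    exact hP.trans Subgroup.le_normalizer
  | succ k =>
    exfalso
    apply hn1
    rw [hD, derivedSeries_succ, eq_bot_iff, Subgroup.commutator_le]
    intro x hx y hy
    have hc := Subgroup.commutator_mem_commutator hx hy
    rw [← derivedSeries_succ, ← hD] at hc
    have hcY := Subgroup.mem_map_of_mem S.subtype hc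
    rw [commutatorElement_def] at hc ⊢
    rw [commutatorElement_def] at hcY
    set c : ↥(twistedG2 K e) := S.subtype (x * y * x⁻¹ * y⁻¹) with hcdef
    have hcent : ∀ s ∈ S, c * s = s * c := by
      intro s hs
      by_cases hc1 : c = 1
      · rw [hc1, one_mul, mul_one]
      have hs1 : s * c * s⁻¹ ∈ Y := (Subgroup.mem_normalizer_iff.1 (hSN hs) c).1 hcY
      have hs2 : s * c * s⁻¹ ≠ 1 := fun h => hc1 (conj_eq_one_iff.1 h)
      obtain ⟨w, -, hw⟩ := (Nat.card_eq_two_iff' (1 : Y)).1 hY2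
      have e1 : (⟨s * c * s⁻¹, hs1⟩ : Y) = w := hw _ (fun h => hs2 (congrArg Subtype.val h))
      have e2 : (⟨c, hcY⟩ : Y) = w := hw _ (fun h => hc1 (congrArg Subtype.val h))
      have e3 : s * c * s⁻¹ = c := congrArg Subtype.val (e1.trans e2.symm)
      rw [mul_inv_eq_iff_eq_mul] at e3
      exact e3.symm
    have hc3 := C.comm_of_sylow hK (x := (x : ↥(twistedG2 K e))) (y := (y : ↥(twistedG2 K e))) (c := c) (by rw [hcdef]; simp only [map_mul, map_inv, Subgroup.subtype_apply]) (hcent _ x.2) (hcent _ y.2) (hexp c hcY)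
    rw [Subgroup.mem_bot]
    exact Subtype.ext hc3

end CfsgLib.Ree
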